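import Mathlib
import Cfsg.Agent.Base
import Cfsg.Agent.Lib.H85.StarP
import Cfsg.Agent.Lib.H85.PRegSep

/-! A criterion for perfect isometries through generalized decomposition numbers. -/

set_option autoImplicit false
set_option linter.unusedSectionVars false
set_option linter.style.haveILetI false
attribute [local irreducible] H33.instFieldF

namespace H35C

open Cfsg H33 H84 H85 MonoidAlgebra
open H35 hiding cj
open H86 (Cen Nor cs cj St eS)
open Subgroup (zpowers)
open scoped ComplexConjugate H85.SubFin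

section one

variable {G : Type*} [Group G] [Fintype G] {p : ℕ} [hp : Fact p.Prime] {M : Ideal AlgInt}
  [M.IsMaximal]

/-- The order of the centralizer of an element, as a complex number. -/
noncomputable abbrev cc {G : Type*} [Group G] (x : G) : ℂ :=
  (Nat.card (Subgroup.centralizer ({x} : Set G)) : ℂ)

omit hp in
theorem cc_ne_zero (x : G) : cc x ≠ 0 := Nat.cast_ne_zero.2 Nat.card_pos.ne'

omit [Fintype G] in
theorem cc_conj {x y : G} (h : IsConj x y) : cc x = cc y := by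
  obtain ⟨c, rfl⟩ := isConj_iff.1 h
  refine congrArg (Nat.cast : ℕ → ℂ) (Nat.card_congr ⟨fun a => ⟨c * a * c⁻¹, ?_⟩, fun a => ⟨c⁻¹ * a * c, ?_⟩,
    fun a => Subtype.ext (by simp [mul_assoc]), fun a => Subtype.ext (by simp [mul_assoc])⟩)
  · have := Subgroup.mem_centralizer_singleton_iff.1 a.2
    rw [Subgroup.mem_centralizer_singleton_iff]
    calc c * a * c⁻¹ * (c * x * c⁻¹) = c * (a * x) * c⁻¹ := by group
      _ = _ := by rw [this]; group
  · have := Subgroup.mem_centralizer_singleton_iff.1 a.2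
    rw [Subgroup.mem_centralizer_singleton_iff]
    calc c⁻¹ * a * c * x = c⁻¹ * (a * (c * x * c⁻¹)) * c := by group
      _ = _ := by rw [this]; group

theorem pow_mul_irr_div_mem_O (hM : IsPModular p M) {b : Set (IrrCharacter G)}
    {ψ : IrrCharacter G} (hψ : ψ ∈ b) (s : G) :
    (p : ℂ) ^ blockDefect p b * (ψ : G → ℂ) s / cc s ∈ O M := by
  have h1 := H33.centralChar_mem_O (M := M) ψ s
  have hd := H33.charDegree_ne_zero ψ
  have h2 : ((p ^ blockDefect p b * charDegree (ψ : G → ℂ) : ℕ) : ℂ) / (Nat.card G : ℕ) ∈ O M := by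
    rw [natCast_div_mem_O_iff hM (mul_ne_zero (pow_ne_zero _ hp.out.ne_zero) hd) Nat.card_pos.ne',
      Nat.factorization_mul (pow_ne_zero _ hp.out.ne_zero) hd, Finsupp.add_apply,
      hp.out.factorization_pow, Finsupp.single_eq_same, ← minval_add_defect (p := p) ⟨ψ, hψ⟩]
    have := minval_le (p := p) hψ
    omega
  have h3 := (O M).mul_mem h1 h2
  convert h3 using 1
  have h4 : ((Nat.card G : ℕ) : ℂ) = cc s * (Subgroup.centralizer ({s} : Set G)).index := by
    rw [← Nat.cast_mul, Subgroup.card_mul_index]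
  have h5 : ((Subgroup.centralizer ({s} : Set G)).index : ℂ) ≠ 0 :=
    Nat.cast_ne_zero.2 Subgroup.index_ne_zero_of_finite
  have h6 := cc_ne_zero s
  have h7 := H33.irr_one_ne_zero ψ
  rw [centralChar, h4, Nat.cast_mul, ← H33.irr_one_eq_charDegree, Nat.cast_pow]
  field_simp

theorem lat_mem_O {b : Set (IrrCharacter G)} {f : G → ℂ} (hf : f ∈ lat p b) (s : G) :
    f s ∈ O M := by
  induction hf using AddSubgroup.closure_induction with
  | mem x hx =>
    obtain ⟨ψ, -, rfl⟩ := hx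
    by_cases hs : p ∣ orderOf s
    · simp only [pRegularPart, IsPRegular, hs, not_true, if_false]; exact zero_mem _
    · simp only [pRegularPart, IsPRegular, hs, not_false_iff, if_true]; exact irr_mem_O M ψ s
  | zero => exact zero_mem _
  | add x y _ _ hx hy => exact add_mem hx hy
  | neg x _ hx => exact neg_mem hx

theorem lat_div_mem_O (hM : IsPModular p M) {b : Set (IrrCharacter G)} {f : G → ℂ}
    (hf : f ∈ lat p b) (s : G) : (p : ℂ) ^ blockDefect p b * f s / cc s ∈ O M := by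
  induction hf using AddSubgroup.closure_induction with
  | mem x hx =>
    obtain ⟨ψ, hψ, rfl⟩ := hx
    by_cases hs : p ∣ orderOf s
    · simp only [pRegularPart, IsPRegular, hs, not_true, if_false, mul_zero, zero_div]
      exact zero_mem _
    · simp only [pRegularPart, IsPRegular, hs, not_false_iff, if_true]
      exact pow_mul_irr_div_mem_O hM hψ s
  | zero => simpa using zero_mem _
  | add x y _ _ hx hy => rw [Pi.add_apply, mul_add, add_div]; exact add_mem hx hy
  | neg x _ hx => rw [Pi.neg_apply, mul_neg, neg_div]; exact neg_mem hx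

/-- An integral combination of characters vanishing on the singular elements is projective. -/
theorem div_cc_mem_O_of_sing (hM : IsPModular p M) {ι : Type*} (s : Finset ι) (a : ι → ℂ)
    (χ : ι → IrrCharacter G) (ha : ∀ i ∈ s, a i ∈ O M)
    (h0 : ∀ g : G, p ∣ orderOf g → ∑ i ∈ s, a i * (χ i : G → ℂ) g = 0) (x : G) :
    (∑ i ∈ s, a i * (χ i : G → ℂ) x) / cc x ∈ O M := by
  classical
  by_cases hx : p ∣ orderOf x
  · rw [h0 x hx, zero_div]; exact zero_mem _
  obtain ⟨S⟩ : Nonempty (Sylow p (Subgroup.centralizer ({x} : Set G))) := inferInstance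
  set P : Subgroup G := (S : Subgroup (Subgroup.centralizer ({x} : Set G))).map
    (Subgroup.subtype _) with hP
  have hPc : Nat.card P = Nat.card S := Subgroup.card_map_of_injective Subtype.val_injective
  have hPp : IsPGroup p P := S.isPGroup'.map _
  have hcomm : ∀ u ∈ P, x * u = u * x := by
    rintro _ ⟨u, -, rfl⟩
    exact (Subgroup.mem_centralizer_singleton_iff.1 u.2).symm
  have key : ∑ i ∈ s, a i * (χ i : G → ℂ) x = ∑ i ∈ s, a i * ∑ u : P, (χ i : G → ℂ) (x * u) := by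
    simp_rw [Finset.mul_sum]
    rw [Finset.sum_comm, Finset.sum_eq_single (1 : P)]
    · simp
    · intro u _ hu
      refine h0 _ ?_
      rw [hcomm u u.2]
      exact dvd_orderOf_mul (isPElt_of_mem hPp u.2) (fun h => hu (Subtype.ext h)) hx
        (hcomm u u.2).symm
    · simp
  have h1 : cc x = Nat.card P * (S : Subgroup (Subgroup.centralizer ({x} : Set G))).index := by
    rw [hPc, ← Nat.cast_mul]; exact congrArg _ (Subgroup.card_mul_index _).symm
  have h2 := natCast_inv_mem_O hM S.not_dvd_index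
  have h3 : (Nat.card P : ℂ) ≠ 0 := Nat.cast_ne_zero.2 Nat.card_pos.ne'
  rw [key, h1, div_mul_eq_div_div, div_eq_mul_inv]
  refine mul_mem ?_ h2
  rw [Finset.sum_div]
  refine sum_mem fun i hi => ?_
  rw [mul_div_assoc, div_eq_inv_mul]
  exact mul_mem (ha i hi) (mem_O_of_isIntegral M
    (isIntegral_average_coset (H6.irr_isCharacter (χ i).2) P hcomm))

omit [Fintype G] in
theorem cc_mul [Finite G] {u : G} {C : Subgroup G} (hu : IsPElt p u) (hC : IsCen u C) (s : C)
    (hs : ¬ p ∣ orderOf s) : cc (u * s) = cc s := by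
  have hs' : ¬ p ∣ orderOf (s : G) := by rwa [Subgroup.orderOf_coe]
  have hpp : pPart p (u * s) = u := pPart_mul_eq hu hs' (hC.comm s)
  have h1 : ∀ g : G, g * (u * s) = u * s * g → g ∈ C := fun g hg => by
    rw [hC g, ← hpp]
    have : Commute (u * s) g := hg.symm
    obtain ⟨k, hk⟩ := Subgroup.mem_zpowers_iff.1 (pPart_mem_zpowers p (u * (s : G)))
    rw [← hk]
    exact this.zpow_left k
  refine congrArg (Nat.cast : ℕ → ℂ) (Nat.card_congr ⟨fun a => ⟨⟨a, h1 a
    (Subgroup.mem_centralizer_singleton_iff.1 a.2)⟩, ?_⟩, fun a => ⟨a, ?_⟩,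
    fun a => rfl, fun a => rfl⟩)
  · have h2 := Subgroup.mem_centralizer_singleton_iff.1 a.2
    have h3 : u * a = a * u := (hC a).1 (h1 a h2)
    rw [Subgroup.mem_centralizer_singleton_iff]
    apply Subtype.ext
    show (a : G) * s = s * a
    apply mul_left_cancel (a := u)
    rw [← mul_assoc, h3, mul_assoc, h2, mul_assoc]
  · have h2 : ((a : C) : G) * s = s * (a : C) :=
      congrArg Subtype.val (Subgroup.mem_centralizer_singleton_iff.1 a.2)
    have h3 : u * (a : C) = (a : C) * u := hC.comm _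
    rw [Subgroup.mem_centralizer_singleton_iff, ← mul_assoc, ← h3, mul_assoc, h2, mul_assoc]

variable {B : Set (IrrCharacter G)} {P : Subgroup G} {e : MonoidAlgebra (F M) G} {u : G}

theorem isClassFunction_brc (b : Set (IrrCharacter G)) : IsClassFunction G (brc p b) :=
  isClassFunction_of_mem_regSpan (brc_mem_regSpan b)

theorem Phi_mem_O (h : MP p M B P e) (hu : u ∈ P) (x : G) : Phi p M P e u x ∈ O M :=
  unsec_mem (h.isPElt hu) (isCen_zpowers u) (isClassFunction_brc _)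
    (fun s _ => lat_mem_O (brc_mem_lat _) s) x

theorem Phi_div_mem_O (h : MP p M B P e) (hab : P ≤ Cen P) (hu : u ∈ P) (x : G) :
    (Nat.card P : ℂ) * Phi p M P e u x / cc x ∈ O M := by
  by_cases hx : IsConj u (pPart p x)
  · obtain ⟨s, hs, hc⟩ := exists_conj_eq_mul (isCen_zpowers u) hx
    rw [H6.classFun_of_isConj (isClassFunction_Phi u) hc, cc_conj hc,
      cc_mul (h.isPElt hu) (isCen_zpowers u) s hs, Phi,
      unsec_apply (h.isPElt hu) (isCen_zpowers u) (isClassFunction_brc _) s hs, h.card_eq,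
      ← h.defect_loc (Q := zpowers u) ((Subgroup.zpowers_le).2 hu)
        (hab.trans (H86.Cen_anti ((Subgroup.zpowers_le).2 hu))), Nat.cast_pow]
    exact lat_div_mem_O h.hM (brc_mem_lat _) s
  · rw [Phi, unsec_eq_zero (h.isPElt hu) (isCen_zpowers u) _ hx, mul_zero, zero_div]
    exact zero_mem _

/-- All the subsections of non-identity elements have rank one. -/
def RO (p : ℕ) {G : Type*} [Group G] [Finite G] (M : Ideal AlgInt) [M.IsMaximal] (P : Subgroup G)
    (e : MonoidAlgebra (F M) G) : Prop :=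
  ∀ u ∈ P, u ≠ 1 → blockRank p (loc p M P e (zpowers u)) = 1

theorem irr_sing [DecidableEq G] (h : MP p M B P e) (hl : RO p M P e) {Y : Finset G}
    (hY : Reps p P e Y) {χ : IrrCharacter G} (hχ : χ ∈ B) {x : G} (hx : p ∣ orderOf x) :
    (χ : G → ℂ) x = ∑ y ∈ Y.erase 1, dv p M P e χ y * Phi p M P e y x := by
  have h1 := congrFun (h.blockPart_eq_sum hY (irr_isClassFunction χ)) x
  rw [blockPart_irr_of_mem hχ, Finset.sum_apply] at h1
  rw [h1, ← Finset.sum_subset (Finset.erase_subset 1 Y)]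
  · refine Finset.sum_congr rfl fun y hy => ?_
    have hy' := Finset.mem_erase.1 hy
    rw [h.sub_eq (hY.mem y hy'.2) (hl y (hY.mem y hy'.2) hy'.1), unsec_smul]
    rfl
  · intro y hy hy'
    have : y = 1 := by simpa [hy] using hy'
    subst this
    refine unsec_eq_zero isPElt_one (isCen_zpowers 1) _ fun hc => ?_
    exact ((pPart_eq_one_iff p).1 (isConj_one_right.1 hc)) hx

end one

section two

variable {G₁ G₂ : Type*} [Group G₁] [Fintype G₁] [Group G₂] [Fintype G₂] {p : ℕ}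
  [hp : Fact p.Prime] {M : Ideal AlgInt} [M.IsMaximal]
  {B₁ : Set (IrrCharacter G₁)} {P₁ : Subgroup G₁} {e₁ : MonoidAlgebra (F M) G₁}
  {B₂ : Set (IrrCharacter G₂)} {P₂ : Subgroup G₂} {e₂ : MonoidAlgebra (F M) G₂}

/-- One half of the criterion, symmetric in the two groups. -/
theorem perf_half (h₁ : MP p M B₁ P₁ e₁) (h₂ : MP p M B₂ P₂ e₂) (hab : P₁ ≤ Cen P₁)
    (hl₁ : RO p M P₁ e₁) (hl₂ : RO p M P₂ e₂) {ι : Type*} (S : Finset ι) (s : ι → ℤ)
    (I₁ : ι → IrrCharacter G₁) (I₂ : ι → IrrCharacter G₂) (hI₁ : ∀ i ∈ S, I₁ i ∈ B₁)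
    (hI₂ : ∀ i ∈ S, I₂ i ∈ B₂)
    (hss : ∀ u ∈ P₁, u ≠ 1 → ∀ v ∈ P₂, v ≠ 1 →
      (∑ i ∈ S, (s i : ℂ) * dv p M P₁ e₁ (I₁ i) u * dv p M P₂ e₂ (I₂ i) v) / Nat.card P₁ ∈ O M)
    (hsr : ∀ x, p ∣ orderOf x → ∀ y, ¬ p ∣ orderOf y →
      ∑ i ∈ S, (s i : ℂ) * (I₁ i : G₁ → ℂ) x * (I₂ i : G₂ → ℂ) y = 0)
    (hrs : ∀ x, ¬ p ∣ orderOf x → ∀ y, p ∣ orderOf y →
      ∑ i ∈ S, (s i : ℂ) * (I₁ i : G₁ → ℂ) x * (I₂ i : G₂ → ℂ) y = 0) (x : G₁) (y : G₂) :
    (∑ i ∈ S, (s i : ℂ) * (I₁ i : G₁ → ℂ) x * (I₂ i : G₂ → ℂ) y) / cc x ∈ O M := by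
  classical
  by_cases hy : p ∣ orderOf y
  · by_cases hx : p ∣ orderOf x
    · obtain ⟨Y₁, hY₁⟩ := h₁.exists_reps
      obtain ⟨Y₂, hY₂⟩ := h₂.exists_reps
      have hq : (Nat.card P₁ : ℂ) ≠ 0 := Nat.cast_ne_zero.2 Nat.card_pos.ne'
      have key : ∑ i ∈ S, (s i : ℂ) * (I₁ i : G₁ → ℂ) x * (I₂ i : G₂ → ℂ) y =
          ∑ u ∈ Y₁.erase 1, ∑ v ∈ Y₂.erase 1,
            (∑ i ∈ S, (s i : ℂ) * dv p M P₁ e₁ (I₁ i) u * dv p M P₂ e₂ (I₂ i) v) *
              Phi p M P₁ e₁ u x * Phi p M P₂ e₂ v y := by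
        simp_rw [Finset.sum_mul]
        rw [Finset.sum_congr rfl fun u _ => Finset.sum_comm, Finset.sum_comm]
        refine Finset.sum_congr rfl fun i hi => ?_
        rw [irr_sing h₁ hl₁ hY₁ (hI₁ i hi) hx, irr_sing h₂ hl₂ hY₂ (hI₂ i hi) hy, mul_assoc,
          Finset.sum_mul_sum, Finset.mul_sum]
        refine Finset.sum_congr rfl fun u _ => ?_
        rw [Finset.mul_sum]
        exact Finset.sum_congr rfl fun v _ => by ring
      rw [key, Finset.sum_div]
      refine sum_mem fun u hu => ?_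
      rw [Finset.sum_div]
      refine sum_mem fun v hv => ?_
      have hu' := Finset.mem_erase.1 hu
      have hv' := Finset.mem_erase.1 hv
      have := mul_mem (mul_mem (hss u (hY₁.mem u hu'.2) hu'.1 v (hY₂.mem v hv'.2) hv'.1)
        (Phi_div_mem_O h₁ hab (hY₁.mem u hu'.2) x)) (Phi_mem_O h₂ (hY₂.mem v hv'.2) y)
      convert this using 1
      have := cc_ne_zero x
      field_simp
    · rw [hrs x hx y hy, zero_div]; exact zero_mem _
  · have := div_cc_mem_O_of_sing h₁.hM S (fun i => (s i : ℂ) * (I₂ i : G₂ → ℂ) y) I₁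
      (fun i _ => mul_mem (intCast_mem _ _) (irr_mem_O M _ _))
      (fun g hg => (Finset.sum_congr rfl fun i _ => by ring).trans (hsr g hg y hy)) x
    convert this using 2
    exact Finset.sum_congr rfl fun i _ => by ring

/-- Criterion for a perfect isometry. -/
theorem isPerfectIsometry_of (h₁ : MP p M B₁ P₁ e₁) (h₂ : MP p M B₂ P₂ e₂) (hab₁ : P₁ ≤ Cen P₁)
    (hab₂ : P₂ ≤ Cen P₂) (hl₁ : RO p M P₁ e₁) (hl₂ : RO p M P₂ e₂)
    (hq : Nat.card P₁ = Nat.card P₂) (I : IrrCharacter G₂ → IrrCharacter G₁)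
    (s : IrrCharacter G₂ → ℤ) (hI : Set.BijOn I B₂ B₁) (hs : ∀ η ∈ B₂, s η = 1 ∨ s η = -1)
    (hss : ∀ u ∈ P₁, u ≠ 1 → ∀ v ∈ P₂, v ≠ 1 →
      (∑ η ∈ bset B₂, (s η : ℂ) * dv p M P₁ e₁ (I η) u * dv p M P₂ e₂ η v) / Nat.card P₁ ∈ O M)
    (hsr : ∀ x, p ∣ orderOf x → ∀ y, ¬ p ∣ orderOf y →
      ∑ η ∈ bset B₂, (s η : ℂ) * (I η : G₁ → ℂ) x * (η : G₂ → ℂ) y = 0)
    (hrs : ∀ x, ¬ p ∣ orderOf x → ∀ y, p ∣ orderOf y →
      ∑ η ∈ bset B₂, (s η : ℂ) * (I η : G₁ → ℂ) x * (η : G₂ → ℂ) y = 0) :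
    IsPerfectIsometry p M B₂ B₁ I s := by
  refine ⟨hI, hs, fun x y => ?_⟩
  have hk : signedBijectionKernel B₂ I s x y =
      ∑ η ∈ bset B₂, (s η : ℂ) * (I η : G₁ → ℂ) x * (η : G₂ → ℂ) y := by
    rw [signedBijectionKernel, finsum_mem_eq]
  rw [hk]
  refine ⟨mem_O.1 (perf_half h₁ h₂ hab₁ hl₁ hl₂ _ s I id (fun i hi => hI.mapsTo (mem_bset.1 hi))
    (fun i hi => mem_bset.1 hi) hss hsr hrs x y), mem_O.1 ?_, ?_⟩
  · have := perf_half h₂ h₁ hab₂ hl₂ hl₁ _ s id I (fun i hi => mem_bset.1 hi)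
      (fun i hi => hI.mapsTo (mem_bset.1 hi))
      (fun v hv hv1 u hu hu1 => by
        rw [← hq]; convert hss u hu hu1 v hv hv1 using 2
        exact Finset.sum_congr rfl fun i _ => by simp only [id]; ring)
      (fun y hy x hx => (Finset.sum_congr rfl fun i _ => by simp only [id]; ring).trans
        (hrs x hx y hy))
      (fun y hy x hx => (Finset.sum_congr rfl fun i _ => by simp only [id]; ring).trans
        (hsr x hx y hy)) y x
    convert this using 2
    exact Finset.sum_congr rfl fun i _ => by simp only [id]; ring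
  · unfold IsPRegular
    by_cases hx : p ∣ orderOf x <;> by_cases hy : p ∣ orderOf y
    · exact Or.inl (by simp [hx, hy])
    · exact Or.inr (hsr x hx y hy)
    · exact Or.inr (hrs x hx y hy)
    · exact Or.inl (by simp [hx, hy])

end two

end H35C
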