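import Mathlib
import Cfsg.Agent.Base
import Cfsg.Agent.Lib.Cyc.Perf

/-! Orbit sums of characters of an abelian group under a free group of automorphisms. -/

set_option autoImplicit false
set_option linter.unusedSectionVars false
set_option linter.style.haveILetI false

namespace H35C

open Cfsg H33 H84 H85
open scoped ComplexConjugate H85.SubFin

variable {K : Type*} [Group K] [Fintype K] {A : Subgroup (MulAut K)}

/-- The orbit sum of a function under a group of automorphisms. -/
noncomputable def th (A : Subgroup (MulAut K)) (f : K → ℂ) : K → ℂ :=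
  fun x => ∑ α : A, f ((α : MulAut K) x)

/-- The composite of a character with an automorphism. -/
def act (α : MulAut K) (μ : IrrCharacter K) : IrrCharacter K :=
  ⟨fun x => (μ : K → ℂ) (α x), H6.isIrrCharacter_comp_equiv α μ.2⟩

theorem th_eq_sum (μ : IrrCharacter K) : th A μ = ∑ α : A, (act α μ : K → ℂ) := by
  funext x; rw [Finset.sum_apply]; rfl

theorem th_aut (f : K → ℂ) {β : MulAut K} (hβ : β ∈ A) (x : K) : th A f (β x) = th A f x :=
  Fintype.sum_equiv (Equiv.mulRight (⟨β, hβ⟩ : A)) _ _ fun _ => rfl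

theorem th_act (μ : IrrCharacter K) {β : MulAut K} (hβ : β ∈ A) : th A (act β μ) = th A μ :=
  funext fun _ => Fintype.sum_equiv (Equiv.mulLeft (⟨β, hβ⟩ : A)) _ _ fun _ => rfl

theorem th_one (f : K → ℂ) : th A f 1 = Nat.card A * f 1 := by
  simp [th, Nat.card_eq_fintype_card]

theorem th_const (c : ℂ) (x : K) : th A (fun _ => c) x = Nat.card A * c := by
  simp [th, Nat.card_eq_fintype_card]

theorem isChar_th (μ : IrrCharacter K) : IsCharacter K (th A μ) := by
  rw [th_eq_sum]; exact H6.isCharacter_sum _ fun α _ => H6.irr_isCharacter (act α μ).2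

theorem inner_th_right {f : K → ℂ} (hf : ∀ β ∈ A, ∀ x, f (β x) = f x) (g : K → ℂ) :
    classInner f (th A g) = Nat.card A * classInner f g := by
  have : th A g = ∑ α : A, fun x => g ((α : MulAut K) x) := by
    funext x; rw [Finset.sum_apply]; rfl
  rw [this, H7.classInner_sum_right, Finset.sum_congr rfl (g := fun _ => classInner f g)]
  · simp [Nat.card_eq_fintype_card]
  · intro α _
    rw [← H7.classInner_comp_equiv (α : MulAut K).toEquiv f g]
    congr 1
    funext x
    exact (hf _ α.2 x).symm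

theorem exists_act_of_inner {μ ν : IrrCharacter K} (h : classInner (th A μ) ν ≠ 0) :
    ∃ α ∈ A, act α μ = ν := by
  rw [th_eq_sum, H7.classInner_sum_left] at h
  obtain ⟨α, -, hα⟩ := Finset.exists_ne_zero_of_sum_ne_zero h
  refine ⟨α, α.2, ?_⟩
  by_contra hne
  exact hα (H6.irr_inner_ne (act α μ).2 ν.2 fun h => hne (Subtype.ext h))

theorem act_ne_one (α : MulAut K) {μ : IrrCharacter K} (h : μ ≠ oneIrr K) : act α μ ≠ oneIrr K :=
  fun h' => h (Subtype.ext (funext fun x => by
    have := congrFun (congrArg Subtype.val h') (α.symm x)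
    simpa [act] using this))

theorem inner_th_one {μ : IrrCharacter K} (h : μ ≠ oneIrr K) :
    classInner (th A μ) (fun _ => 1) = 0 := by
  by_contra h'
  obtain ⟨α, -, hα⟩ := exists_act_of_inner (ν := oneIrr K) h'
  exact act_ne_one α h hα

theorem inner_th_of_ne {μ ν : IrrCharacter K} (h : th A μ ≠ th A ν) :
    classInner (th A μ) ν = 0 := by
  by_contra h'
  obtain ⟨α, hα, rfl⟩ := exists_act_of_inner h'
  exact h (th_act μ hα).symm

/-- `A` acts freely on the non-identity elements of the abelian group `K`. -/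
structure FreeAb (A : Subgroup (MulAut K)) : Prop where
  comm : ∀ a b : K, a * b = b * a
  free : ∀ α ∈ A, ∀ x, x ≠ 1 → α x = x → α = 1

namespace FreeAb

variable (h : FreeAb A)
include h

theorem irr_one (μ : IrrCharacter K) : (μ : K → ℂ) 1 = 1 := H6.irr_one_eq_one_of_comm h.comm μ.2

theorem irr_mul (μ : IrrCharacter K) (a b : K) :
    (μ : K → ℂ) (a * b) = (μ : K → ℂ) a * (μ : K → ℂ) b :=
  H6.char_mul_of_one_eq_one (H6.irr_isCharacter μ.2) (h.irr_one μ) a b

theorem eq_one_of_act {μ : IrrCharacter K} (hμ : μ ≠ oneIrr K) {α : MulAut K} (hα : α ∈ A)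
    (h1 : act α μ = μ) : α = 1 := by
  by_contra hne
  have hinj : Function.Injective fun x => α x * x⁻¹ := fun x y hxy => by
    by_contra hxy'
    refine hne (h.free α hα (y⁻¹ * x) (fun h0 => hxy' (inv_mul_eq_one.1 h0).symm) ?_)
    have h2 : α x * x⁻¹ = α y * y⁻¹ := hxy
    rw [map_mul, map_inv, inv_mul_eq_iff_eq_mul, ← mul_assoc, ← h2, inv_mul_cancel_right]
  refine hμ (Subtype.ext (funext fun z => ?_))
  obtain ⟨x, rfl⟩ := Finite.surjective_of_injective hinj z
  have h3 : (μ : K → ℂ) (α x) = (μ : K → ℂ) x := congrFun (congrArg Subtype.val h1) x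
  show (μ : K → ℂ) (α x * x⁻¹) = 1
  rw [h.irr_mul, h3, ← h.irr_mul, mul_inv_cancel, h.irr_one]

theorem inner_th_self {μ : IrrCharacter K} (hμ : μ ≠ oneIrr K) : classInner (th A μ) μ = 1 := by
  classical
  rw [th_eq_sum, H7.classInner_sum_left, Finset.sum_eq_single (1 : A)]
  · exact H6.irr_inner_self μ.2
  · intro α _ hα
    exact H6.irr_inner_ne (act α μ).2 μ.2 fun h1 =>
      hα (Subtype.ext (h.eq_one_of_act hμ α.2 (Subtype.ext h1)))
  · simp

theorem inner_th_sub {μ : IrrCharacter K} (hμ : μ ≠ oneIrr K) {ν : IrrCharacter K}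
    (hν : ν ≠ oneIrr K) :
    classInner (th A μ - fun _ => (Nat.card A : ℂ)) (th A ν - fun _ => (Nat.card A : ℂ)) =
      Nat.card A * (classInner (th A μ) ν + Nat.card A) := by
  have h0 : (fun _ : K => (Nat.card A : ℂ)) = (Nat.card A : ℂ) • fun _ => (1 : ℂ) := by
    funext x; simp
  rw [h0, H7.classInner_sub_left, H7.classInner_sub_right,
    H7.classInner_sub_right, H7.classInner_smul_left, H7.classInner_smul_left,
    H7.classInner_smul_right, H7.classInner_smul_right, H7.classInner_one_one, inner_th_one hμ,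
    ← H7.conj_classInner (th A ν) (fun _ => 1), inner_th_one hν,
    inner_th_right (fun β hβ x => th_aut _ hβ x)]
  simp only [map_natCast, map_zero]
  ring

theorem card_fiber_le [DecidableEq (K → ℂ)] (S : Finset (IrrCharacter K)) (hS : oneIrr K ∉ S)
    (μ : IrrCharacter K) : (S.filter fun ν : IrrCharacter K => th A ν = th A μ).card ≤ Nat.card A := by
  classical
  rw [Nat.card_eq_fintype_card, ← Finset.card_univ]
  refine le_trans (Finset.card_le_card fun ν hν => ?_)
    (Finset.card_image_le (f := fun α : A => act α μ))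
  obtain ⟨h1, h2⟩ := Finset.mem_filter.1 hν
  have h3 := h.inner_th_self (μ := ν) fun h0 => hS (h0 ▸ h1)
  obtain ⟨α, hα, h4⟩ := exists_act_of_inner (A := A) (μ := μ) (ν := ν)
    (by rw [← h2, h3]; exact one_ne_zero)
  exact Finset.mem_image.2 ⟨⟨α, hα⟩, Finset.mem_univ _, h4⟩

theorem card_irr : Nat.card (IrrCharacter K) = Nat.card K := by
  have := H6.sum_irr_one_sq (G := K)
  simp only [h.irr_one, one_pow, Finset.sum_const, Finset.card_univ, nsmul_eq_mul, mul_one] at this
  rw [Nat.card_eq_fintype_card]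
  exact_mod_cast this

theorem exists_sum_mul (a b : K) :
    ∃ m : ℕ, ∑ μ : IrrCharacter K, (μ : K → ℂ) a * (μ : K → ℂ) b = Nat.card K * m := by
  simp only [← h.irr_mul]
  have h1 : ∀ μ : IrrCharacter K, (μ : K → ℂ) (a * b) =
      (μ : K → ℂ) (a * b) * conj ((μ : K → ℂ) 1) := fun μ => by simp [h.irr_one]
  rw [Finset.sum_congr rfl fun μ _ => h1 μ]
  by_cases hab : IsConj (a * b) 1
  · refine ⟨1, ?_⟩
    rw [H6.column_orthogonality_isConj hab, isConj_one_left.1 hab,
      (Subgroup.eq_top_iff' _).2 fun x => Subgroup.mem_centralizer_singleton_iff.2 (by simp)]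
    simp
  · exact ⟨0, by rw [H6.column_orthogonality_not_isConj hab]; simp⟩

theorem exists_sum_th_mul (a b : K) :
    ∃ m : ℕ, ∑ μ : IrrCharacter K, th A μ a * th A μ b = Nat.card K * m := by
  choose m hm using h.exists_sum_mul
  refine ⟨∑ α : A, ∑ β : A, m ((α : MulAut K) a) ((β : MulAut K) b), ?_⟩
  simp only [th, Finset.sum_mul_sum]
  simp only [Nat.cast_sum, Finset.mul_sum, ← hm]
  rw [Finset.sum_comm]
  exact Finset.sum_congr rfl fun α _ => Finset.sum_comm

end FreeAb

end H35C
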