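import Mathlib
import Cfsg.Agent.Base
import Cfsg.Agent.Lib.Cyc.Orb
import Cfsg.Agent.Lib.H85.NilBP
import Cfsg.Agent.Lib.Block.Column

/-! Labelling the exceptional characters by characters of the defect group. -/

set_option autoImplicit false
set_option linter.unusedSectionVars false
set_option linter.style.haveILetI false
attribute [local irreducible] H33.instFieldF

namespace H35C

open Cfsg H33 H84 H85 MonoidAlgebra
open H35 hiding cj
open H86 (Cen Nor cs cj St eS)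
open Subgroup (zpowers)
open scoped ComplexConjugate H85.SubFin

variable {G : Type*} [Group G] [Fintype G] {p : ℕ} [hp : Fact p.Prime] {M : Ideal AlgInt}
  [M.IsMaximal] {B : Set (IrrCharacter G)} {P : Subgroup G} {e : MonoidAlgebra (F M) G}
  {K : Type*} [Group K] [Fintype K] {σ : P ≃* K} {A : Subgroup (MulAut K)} {n q : ℕ}

/-- The splitting of a block into `n` nonexceptional and `(q - 1) / n` exceptional characters. -/
structure DL (p : ℕ) {G : Type*} [Group G] [Finite G] (B : Set (IrrCharacter G)) (n q : ℕ) where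
  X : Finset (IrrCharacter G)
  Y : Finset (IrrCharacter G)
  εX : IrrCharacter G → ℤ
  ε : ℤ
  sub : ∀ χ ∈ X, χ ∈ B
  mem_Y : ∀ ψ, ψ ∈ Y ↔ ψ ∈ B ∧ ψ ∉ X
  card_X : X.card = n
  card_Y : n * Y.card + 1 = q
  ne : Y.Nonempty
  sign : ε = 1 ∨ ε = -1
  signX : ∀ χ ∈ X, εX χ = 1 ∨ εX χ = -1
  singX : ∀ χ ∈ X, ∀ χ' ∈ X, ∀ g, p ∣ orderOf g →
    (εX χ : ℂ) * (χ : G → ℂ) g = εX χ' * (χ' : G → ℂ) g
  regY : ∀ ψ ∈ Y, ∀ g, ¬ p ∣ orderOf g →
    (ε : ℂ) * (ψ : G → ℂ) g = ∑ χ ∈ X, (εX χ : ℂ) * (χ : G → ℂ) g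
  ht : ∀ χ ∈ X, blockHeight p B (χ : G → ℂ) = 0

namespace DL

variable (D : DL p B n q)

theorem sign_sq : (D.ε : ℂ) * D.ε = 1 := by rcases D.sign with h | h <;> simp [h]

theorem signX_sq {χ : IrrCharacter G} (hχ : χ ∈ D.X) : (D.εX χ : ℂ) * D.εX χ = 1 := by
  rcases D.signX χ hχ with h | h <;> simp [h]

theorem sum_B {R : Type*} [AddCommMonoid R] (f : IrrCharacter G → R) :
    ∑ χ ∈ bset B, f χ = ∑ χ ∈ D.X, f χ + ∑ χ ∈ D.Y, f χ := by
  classical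
  rw [← Finset.sum_union (Finset.disjoint_right.2 fun ψ h => ((D.mem_Y ψ).1 h).2)]
  refine Finset.sum_congr (Finset.ext fun χ => ?_) fun _ _ => rfl
  rw [mem_bset, Finset.mem_union, D.mem_Y]
  exact ⟨fun h => by tauto, fun h => h.elim (D.sub χ) And.left⟩

/-- The signed sum of the nonexceptional characters. -/
noncomputable def S : G → ℂ := ∑ χ ∈ D.X, (D.εX χ : ℂ) • (χ : G → ℂ)

theorem S_apply (g : G) : D.S g = ∑ χ ∈ D.X, (D.εX χ : ℂ) * (χ : G → ℂ) g := by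
  rw [S, Finset.sum_apply]; rfl

theorem isGen_S : IsGeneralizedCharacter G D.S :=
  H6.isGen_sum _ fun χ _ => H6.isGen_intCast_smul _ (H6.irr_isGen χ.2)

theorem inner_S_X {χ : IrrCharacter G} (hχ : χ ∈ D.X) : classInner D.S χ = D.εX χ := by
  rw [S, H7.classInner_sum_left, Finset.sum_eq_single χ, H7.classInner_smul_left,
    H6.irr_inner_self χ.2, mul_one]
  · intro ψ _ h
    rw [H7.classInner_smul_left, H6.irr_inner_ne ψ.2 χ.2 fun h' => h (Subtype.ext h'), mul_zero]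
  · exact fun h => (h hχ).elim

theorem inner_S_of_not {χ : IrrCharacter G} (hχ : χ ∉ D.X) : classInner D.S χ = 0 := by
  rw [S, H7.classInner_sum_left]
  refine Finset.sum_eq_zero fun ψ h => ?_
  rw [H7.classInner_smul_left, H6.irr_inner_ne ψ.2 χ.2 fun h' => hχ (Subtype.ext h' ▸ h), mul_zero]

theorem inner_right_S (f : G → ℂ) :
    classInner f D.S = ∑ χ ∈ D.X, (D.εX χ : ℂ) * classInner f χ := by
  rw [S, H7.classInner_sum_right]
  exact Finset.sum_congr rfl fun χ _ => by rw [H7.classInner_smul_right, map_intCast]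

theorem inner_S_S : classInner D.S D.S = n := by
  rw [D.inner_right_S, Finset.sum_congr rfl fun χ hχ => by rw [D.inner_S_X hχ, D.signX_sq hχ]]
  simp [D.card_X]

theorem S_sing {χ : IrrCharacter G} (hχ : χ ∈ D.X) {g : G} (hg : p ∣ orderOf g) :
    D.S g = n * (D.εX χ * (χ : G → ℂ) g) := by
  rw [S_apply, Finset.sum_congr rfl fun χ' hχ' => D.singX χ' hχ' χ hχ g hg]
  simp [D.card_X]

theorem S_one : ∃ m : ℕ, 0 < m ∧ D.ε * D.S 1 = m := by
  obtain ⟨ψ, hψ⟩ := D.ne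
  obtain ⟨m, hm, h⟩ := H6.irr_one_pos ψ.2
  refine ⟨m, hm, ?_⟩
  rw [S_apply, ← D.regY ψ hψ 1 not_dvd_orderOf_one, ← mul_assoc, D.sign_sq, one_mul, h]

theorem exists_X : ∃ χ, χ ∈ D.X := by
  by_contra h
  obtain ⟨m, hm, h1⟩ := D.S_one
  rw [S_apply, Finset.sum_eq_zero fun χ hχ => (h ⟨χ, hχ⟩).elim, mul_zero] at h1
  exact hm.ne' (Nat.cast_eq_zero.1 h1.symm)

include D in
theorem n_ne_zero : (n : ℂ) ≠ 0 := by
  rw [← D.card_X]
  exact Nat.cast_ne_zero.2 (Finset.card_pos.2 D.exists_X).ne'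

theorem sing_sum (hM : IsPModular p M) (hB : IsPBlock M B) {χ : IrrCharacter G} (hχ : χ ∈ D.X)
    {g : G} (hg : p ∣ orderOf g) :
    D.εX χ * (χ : G → ℂ) g + D.ε * ∑ ψ ∈ D.Y, (ψ : G → ℂ) g = 0 := by
  obtain ⟨m, hm, h1⟩ := D.S_one
  have h2 := col_eq_zero_of_reg hM hB hg (h := 1) not_dvd_orderOf_one
  have h3 : ∀ ψ : IrrCharacter G, conj ((ψ : G → ℂ) 1) = (ψ : G → ℂ) 1 := fun ψ => by
    rw [H33.irr_one_eq_charDegree, map_natCast]
  simp only [h3] at h2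
  rw [D.sum_B, Finset.sum_congr rfl (g := fun χ' => D.εX χ * (χ : G → ℂ) g *
      (D.εX χ' * (χ' : G → ℂ) 1)), Finset.sum_congr rfl (s₁ := D.Y)
      (g := fun ψ => (ψ : G → ℂ) g * m), ← Finset.mul_sum, ← Finset.sum_mul, ← S_apply] at h2
  · have h4 : D.S 1 = D.ε * m := by rw [← h1, ← mul_assoc, D.sign_sq, one_mul]
    have h5 : (D.ε : ℂ) * m ≠ 0 := mul_ne_zero (left_ne_zero_of_mul_eq_one D.sign_sq)
      (Nat.cast_ne_zero.2 hm.ne')
    refine mul_right_cancel₀ h5 ?_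
    rw [h4] at h2
    linear_combination h2 + (∑ ψ ∈ D.Y, (ψ : G → ℂ) g) * m * D.sign_sq
  · intro ψ hψ
    rw [← h1, S_apply, ← D.regY ψ hψ 1 not_dvd_orderOf_one, ← mul_assoc (D.ε : ℂ), D.sign_sq,
      one_mul]
  · intro χ' hχ'
    rw [D.singX χ hχ χ' hχ' g hg]
    linear_combination (-(χ' : G → ℂ) g * (χ' : G → ℂ) 1) * D.signX_sq hχ'

end DL

/-- A maximal Brauer pair whose fusion is induced by a free group of automorphisms. -/
structure AF (p : ℕ) {G : Type*} [Group G] [Finite G] (M : Ideal AlgInt) [M.IsMaximal]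
    (B : Set (IrrCharacter G)) (P : Subgroup G) (e : MonoidAlgebra (F M) G) {K : Type*} [Group K]
    (σ : P ≃* K) (A : Subgroup (MulAut K)) : Prop where
  mp : MP p M B P e
  fa : FreeAb A
  fus : ∀ u v : P, Fus p P e u v ↔ ∃ α ∈ A, σ v = α (σ u)
  ro : RO p M P e

theorem sub_congr_sing (h : MP p M B P e) {u : G} (hu : u ∈ P) (h1 : u ≠ 1) {θ η : G → ℂ}
    (hs : ∀ g, p ∣ orderOf g → θ g = η g) :
    H84.sub p u _ (loc p M P e (zpowers u)) θ = H84.sub p u _ (loc p M P e (zpowers u)) η :=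
  sub_congr h.hM (h.blk (Subgroup.zpowers_le.2 hu)) fun s hs' => hs _
    (dvd_orderOf_mul (h.isPElt hu) h1 (by rwa [Subgroup.orderOf_coe]) ((isCen_zpowers u).comm s))

theorem dv_congr_sing (h : MP p M B P e) {u : G} (hu : u ∈ P) (h1 : u ≠ 1) {θ η : G → ℂ}
    (hs : ∀ g, p ∣ orderOf g → θ g = η g) : dv p M P e θ u = dv p M P e η u := by
  rw [dv, dv, sub_congr_sing h hu h1 hs]

theorem ctr_one_eq_zero (h : MP p M B P e) {θ : G → ℂ} (hs : ∀ g, ¬ p ∣ orderOf g → θ g = 0)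
    (η : G → ℂ) : ctr p M P e θ η 1 = 0 := by
  have : H84.sub p ((1 : P) : G) _ (loc p M P e (zpowers ((1 : P) : G))) θ = (0 : ℂ) •
      H84.sub p ((1 : P) : G) _ (loc p M P e (zpowers ((1 : P) : G))) θ := by
    rw [← H84.sub_smul]
    refine sub_congr h.hM (h.blk (Subgroup.zpowers_le.2 (1 : P).2)) fun s hs' => ?_
    rw [zero_smul, hs _ (by simpa using hs')]
    rfl
  rw [ctr, this, H7.classInner_smul_left, zero_mul, mul_zero]

namespace AF

variable (h : AF p M B P e σ A)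
include h

theorem ab : P ≤ Cen P := fun x hx => Subgroup.mem_centralizer_iff.2 fun y hy =>
  congrArg Subtype.val (σ.injective (by
    rw [map_mul, map_mul, h.fa.comm]) : (⟨y, hy⟩ * ⟨x, hx⟩ : P) = ⟨x, hx⟩ * ⟨y, hy⟩)

theorem card : Nat.card P = Nat.card K := Nat.card_congr σ.toEquiv

theorem stab {f : K → ℂ} (hf : ∀ β ∈ A, ∀ x, f (β x) = f x) : Stab p P e fun u => f (σ u) :=
  fun u v huv => by
    obtain ⟨α, hα, h1⟩ := (h.fus u v).1 huv
    show f (σ u) = f (σ v)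
    rw [h1, hf α hα]

theorem inv_of_stab {μ : P → ℂ} (hμ : Stab p P e μ) (β : MulAut K) (hβ : β ∈ A) (x : K) :
    μ (σ.symm (β x)) = μ (σ.symm x) :=
  (hμ _ _ ((h.fus _ _).2 ⟨β, hβ, by simp⟩)).symm

theorem stab_th (μ : IrrCharacter K) : Stab p P e fun u => th A μ (σ u) :=
  h.stab fun _ hβ x => th_aut _ hβ x

theorem isGen_ctr {θ η : G → ℂ} (hθ : IsGeneralizedCharacter G θ)
    (hη : IsGeneralizedCharacter G η) :
    IsGeneralizedCharacter P ((Nat.card A : ℂ) • ctr p M P e θ η) := by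
  have c1 := H6.gen_isClassFunction hθ
  have c2 := H6.gen_isClassFunction hη
  have s1 := h.mp.stab_ctr c1 c2
  refine H6.isGen_of_inner (h.mp.isClassFunction_of_stab (s1.comp fun z => Nat.card A * z))
    fun μ hμ => ?_
  set ν : IrrCharacter K := ⟨fun x => μ (σ.symm x), H6.isIrrCharacter_comp_equiv σ.symm hμ⟩
  obtain ⟨m, hm⟩ := H6.gen_inner_int hθ (h.mp.isGen_pstar (h.stab_th ν)
    (H6.isGen_comp σ.toMonoidHom (H6.char_isGen (isChar_th ν))) hη)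
  refine ⟨m, ?_⟩
  rw [← hm, h.mp.inner_pstar_right (h.stab_th ν) c1 c2,
    ← H7.classInner_comp_equiv σ.symm.toEquiv (ctr p M P e θ η), H7.classInner_smul_left,
    ← H7.classInner_comp_equiv σ.symm.toEquiv (ctr p M P e θ η),
    ← inner_th_right (h.inv_of_stab s1)]
  congr 1
  funext x
  simp [ν]

variable (D : DL p B (Nat.card A) (Nat.card K))

theorem ctr_self {χ : IrrCharacter G} (hχ : χ ∈ D.X) {u : P} (hu : u ≠ 1) :
    Nat.card A * ctr p M P e χ χ u = 1 := by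
  letI := Classical.decEq P
  have hq : (Nat.card K : ℂ) ≠ 0 := Nat.cast_ne_zero.2 Nat.card_pos.ne'
  have hY : (Nat.card A : ℂ) * D.Y.card + 1 = Nat.card K := by exact_mod_cast D.card_Y
  set θ : G → ℂ := (-(D.εX χ : ℂ) / Nat.card K) • ∑ ψ ∈ D.Y, ((D.ε : ℂ) • (ψ : G → ℂ) - D.S)
    with hθ
  have hθa : ∀ g, θ g = (-(D.εX χ : ℂ) / Nat.card K) *
      (D.ε * ∑ ψ ∈ D.Y, (ψ : G → ℂ) g - D.Y.card * D.S g) := fun g => by
    simp [hθ, Finset.sum_apply, Finset.mul_sum]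
  have hθc : IsClassFunction G θ := fun a b => by
    rw [hθa, hθa, H6.gen_isClassFunction D.isGen_S a b,
      Finset.sum_congr rfl fun ψ _ => H33.irr_isClassFunction ψ a b]
  have hreg : ∀ g, ¬ p ∣ orderOf g → θ g = 0 := fun g hg => by
    rw [hθa, Finset.mul_sum, Finset.sum_congr rfl fun ψ hψ => D.regY ψ hψ g hg, ← D.S_apply]
    simp
  have hsing : ∀ g, p ∣ orderOf g → θ g = (χ : G → ℂ) g := fun g hg => by
    rw [hθa, D.S_sing hχ hg, eq_neg_of_add_eq_zero_right (D.sing_sum h.mp.hM h.mp.hB hχ hg),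
      div_mul_eq_mul_div, div_eq_iff hq, ← hY]
    linear_combination ((χ : G → ℂ) g * (Nat.card A * D.Y.card + 1)) * D.signX_sq hχ
  have hin : classInner θ χ = D.Y.card / Nat.card K := by
    rw [hθ, H7.classInner_smul_left, H7.classInner_sum_left,
      Finset.sum_congr rfl (g := fun _ => -(D.εX χ : ℂ)), Finset.sum_const, nsmul_eq_mul]
    · field_simp
      linear_combination (D.Y.card : ℂ) * D.signX_sq hχ
    · intro ψ hψ
      rw [H7.classInner_sub_left, H7.classInner_smul_left, D.inner_S_X hχ,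
        H6.irr_inner_ne ψ.2 χ.2 fun h' => ((D.mem_Y ψ).1 hψ).2 (Subtype.ext h' ▸ hχ)]
      ring
  have h1 := h.mp.inner_eq_ctr hθc (H33.irr_isClassFunction χ)
  rw [blockPart_irr_of_mem (D.sub χ hχ), hin, H6.classInner_one_right,
    ← Finset.add_sum_erase _ _ (Finset.mem_univ (1 : P)), ctr_one_eq_zero h.mp hreg, zero_add,
    Finset.sum_congr rfl (g := fun v => ctr p M P e χ χ v), h.card, div_eq_inv_mul,
    mul_right_inj' (inv_ne_zero hq)] at h1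
  swap
  · intro v hv
    rw [ctr, ctr, sub_congr_sing h.mp v.2 (fun h0 => (Finset.mem_erase.1 hv).1 (Subtype.ext h0))
      hsing]
  refine gen_eq_one_of_pos (h.isGen_ctr (H6.irr_isGen χ.2) (H6.irr_isGen χ.2))
    (Finset.univ.erase 1) (fun g hg m hm => ?_) (fun v _ => ?_) ?_ u (by simpa using hu)
  · simp only [Finset.mem_erase, Finset.mem_univ, and_true] at hg ⊢
    intro h0
    exact hg (orderOf_eq_one_iff.1 (Nat.Coprime.eq_one_of_dvd
      (Nat.Coprime.coprime_dvd_right (orderOf_dvd_of_pow_eq_one h0) hm.symm |>.symm)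
      (orderOf_dvd_natCard g)))
  · obtain ⟨r, hr, h2⟩ := ctr_self_eq (p := p) (M := M) (e := e) (χ : G → ℂ) v
    refine ⟨Nat.card A * r, mul_pos (Nat.cast_pos.2 Nat.card_pos) (hr.lt_of_ne fun h3 =>
      h.mp.ctr_ne_zero_of_height (D.sub χ hχ) (D.sub χ hχ) (D.ht χ hχ) (D.ht χ hχ) v ?_), ?_⟩
    · rw [h2, ← h3, Complex.ofReal_zero]
    · simp [h2]
  · simp only [Pi.smul_apply, smul_eq_mul]
    rw [← Finset.mul_sum, ← h1, Finset.card_erase_of_mem (Finset.mem_univ _), Finset.card_univ,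
      ← Nat.card_eq_fintype_card, h.card, ← Nat.cast_mul, Complex.natCast_re,
      Nat.sub_eq_of_eq_add D.card_Y.symm]

theorem inner_pstar {χ : IrrCharacter G} (hχ : χ ∈ D.X) {f g : K → ℂ}
    (hf : ∀ β ∈ A, ∀ x, f (β x) = f x) (hg : ∀ β ∈ A, ∀ x, g (β x) = g x) (h1 : f 1 = 0) :
    Nat.card A * classInner (pstar p M P e (fun u => f (σ u)) χ)
      (pstar p M P e (fun u => g (σ u)) χ) = classInner f g := by
  rw [h.mp.inner_pstar_pstar (h.stab hf) (h.stab hg) (H33.irr_isClassFunction χ)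
    (H33.irr_isClassFunction χ), ← H7.classInner_smul_left,
    ← H7.classInner_comp_equiv σ.toEquiv f g]
  congr 1
  funext u
  by_cases hu : u = 1
  · simp [hu, h1]
  · have := h.ctr_self D hχ hu
    simp only [Pi.smul_apply, smul_eq_mul, MulEquiv.toEquiv_eq_coe, EquivLike.coe_coe]
    linear_combination f (σ u) * this

/-- The labelling of the exceptional characters. -/
theorem exists_label [DecidableEq (IrrCharacter K)] :
    ∃ (ψ : IrrCharacter K → IrrCharacter G) (δ : G → ℂ),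
    (∀ μ, μ ≠ oneIrr K → ψ μ ∈ D.Y) ∧ (∀ y ∈ D.Y, ∃ μ, μ ≠ oneIrr K ∧ ψ μ = y) ∧
    (∀ μ, μ ≠ oneIrr K → ∀ ν, ν ≠ oneIrr K → (ψ μ = ψ ν ↔ th A μ = th A ν)) ∧
    (∀ f : IrrCharacter G → ℂ,
      ∑ μ ∈ Finset.univ.erase (oneIrr K), f (ψ μ) = Nat.card A * ∑ y ∈ D.Y, f y) ∧
    (∀ u ∈ P, δ u ∈ O M) ∧ (∀ χ ∈ D.X, ∀ u ∈ P, u ≠ 1 → D.εX χ * dv p M P e χ u = δ u) ∧
    ∀ μ, μ ≠ oneIrr K → ∀ u : P, u ≠ 1 → D.ε * dv p M P e (ψ μ) u = δ u * th A μ (σ u) := by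
  letI := Classical.decEq (IrrCharacter G)
  letI := Classical.decEq (K → ℂ)
  obtain ⟨χ, hχ⟩ := D.exists_X
  have hn := D.n_ne_zero
  have hχc := H33.irr_isClassFunction χ
  set t : IrrCharacter K → K → ℂ := fun μ => th A μ - fun _ => (Nat.card A : ℂ) with ht
  have htA : ∀ μ, ∀ β ∈ A, ∀ x, t μ (β x) = t μ x := fun μ β hβ x => by
    simp only [ht, Pi.sub_apply, th_aut _ hβ x]
  have ht1 : ∀ μ, t μ 1 = 0 := fun μ => by simp [ht, th_one, h.fa.irr_one]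
  set φ : IrrCharacter K → G → ℂ := fun μ => pstar p M P e (fun u => t μ (σ u)) χ with hφ
  have hφg : ∀ μ, IsGeneralizedCharacter G (φ μ) := fun μ =>
    h.mp.isGen_pstar (h.stab (htA μ)) (H6.isGen_comp σ.toMonoidHom
      (H6.isGen_sub (H6.char_isGen (isChar_th μ)) (by
        convert H6.isGen_nsmul (Nat.card A) (H6.isGen_one (G := K)) using 1
        funext x; simp))) (H6.irr_isGen χ.2)
  have hφr : ∀ μ g, ¬ p ∣ orderOf g → φ μ g = 0 := fun μ g hg => by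
    simp only [hφ]
    rw [h.mp.pstar_reg (h.stab (htA μ)) (D.sub χ hχ) hg, map_one, ht1, zero_mul]
  have hφφ : ∀ μ, μ ≠ oneIrr K → ∀ ν, ν ≠ oneIrr K →
      classInner (φ μ) (φ ν) = classInner (th A μ) ν + Nat.card A := fun μ hμ ν hν =>
    mul_left_cancel₀ hn ((h.inner_pstar D hχ (htA μ) (htA ν) (ht1 μ)).trans
      (h.fa.inner_th_sub hμ hν))
  have hφχ : ∀ μ, μ ≠ oneIrr K → classInner (φ μ) χ = -1 := fun μ hμ => by
    have h1 := h.inner_pstar D hχ (htA μ) (g := fun _ => 1) (fun _ _ _ => rfl) (ht1 μ)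
    rw [h.mp.pstar_const hχc, one_smul, blockPart_irr_of_mem (D.sub χ hχ), ht,
      H7.classInner_sub_left, inner_th_one hμ, H6.classInner_one_right] at h1
    refine mul_left_cancel₀ hn (h1.trans ?_)
    have : (Nat.card K : ℂ) ≠ 0 := Nat.cast_ne_zero.2 Nat.card_pos.ne'
    rw [Finset.sum_const, Finset.card_univ, ← Nat.card_eq_fintype_card, nsmul_eq_mul]
    field_simp
    ring
  have hφX : ∀ μ, μ ≠ oneIrr K → ∀ χ' ∈ D.X,
      D.εX χ' * classInner (φ μ) χ' = -D.εX χ := fun μ hμ χ' hχ' => by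
    have h1 : classInner (φ μ) ((D.εX χ' : ℂ) • (χ' : G → ℂ)) =
        classInner (φ μ) ((D.εX χ : ℂ) • (χ : G → ℂ)) := by
      rw [H7.classInner_def, H7.classInner_def]
      refine congrArg _ (Finset.sum_congr rfl fun g _ => ?_)
      by_cases hg : p ∣ orderOf g
      · simp only [Pi.smul_apply, smul_eq_mul, D.singX χ' hχ' χ hχ g hg]
      · rw [hφr μ g hg, zero_mul, zero_mul]
    rw [H7.classInner_smul_right, H7.classInner_smul_right, map_intCast, map_intCast,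
      hφχ μ hμ] at h1
    rw [h1]; ring
  have hφS : ∀ μ, μ ≠ oneIrr K → classInner (φ μ) D.S = -(Nat.card A * D.εX χ) := fun μ hμ => by
    rw [D.inner_right_S, Finset.sum_congr rfl (hφX μ hμ)]
    simp [D.card_X]
  set η : IrrCharacter K → G → ℂ := fun μ => (D.ε : ℂ) • ((D.εX χ : ℂ) • φ μ + D.S) with hη
  have hηη : ∀ μ, μ ≠ oneIrr K → ∀ ν, ν ≠ oneIrr K →
      classInner (η μ) (η ν) = classInner (th A μ) ν := fun μ hμ ν hν => by
    simp only [hη, H7.classInner_smul_left, H7.classInner_smul_right, H7.classInner_add_left,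
      H7.classInner_add_right, map_intCast]
    rw [hφφ μ hμ ν hν, hφS μ hμ, ← H7.conj_classInner (φ ν) D.S, hφS ν hν, D.inner_S_S]
    simp only [map_neg, map_mul, map_natCast, map_intCast]
    linear_combination (classInner (th A μ) ν) * D.sign_sq +
      (D.ε : ℂ) * D.ε * (classInner (th A μ) ν - Nat.card A) * D.signX_sq hχ
  have hirr : ∀ μ, μ ≠ oneIrr K → IsIrrCharacter G (η μ) := fun μ hμ => by
    refine H6.isIrr_of_gen_of_inner_self (H6.isGen_intCast_smul _ (H6.isGen_add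
      (H6.isGen_intCast_smul _ (hφg μ)) D.isGen_S)) ((hηη μ hμ μ hμ).trans (h.fa.inner_th_self hμ))
      ?_
    obtain ⟨m, -, hm⟩ := D.S_one
    simp only [hη, Pi.smul_apply, Pi.add_apply, smul_eq_mul, hφr μ 1 not_dvd_orderOf_one,
      mul_zero, zero_add, hm, Complex.natCast_re, Nat.cast_nonneg]
  set ψ : IrrCharacter K → IrrCharacter G := fun μ =>
    if hμ : μ ≠ oneIrr K then ⟨η μ, hirr μ hμ⟩ else χ with hψ
  have hψη : ∀ μ, μ ≠ oneIrr K → (ψ μ : G → ℂ) = η μ := fun μ hμ => by simp only [hψ, dif_pos hμ]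
  have hmem : ∀ μ, μ ≠ oneIrr K → ψ μ ∈ D.Y := fun μ hμ => by
    have h1 : classInner (η μ) (ψ μ) = 1 := by rw [← hψη μ hμ, H6.irr_inner_self (ψ μ).2]
    simp only [hη, H7.classInner_smul_left, H7.classInner_add_left] at h1
    have h2 : ψ μ ∉ D.X := fun h2 => by
      have h3 := hφX μ hμ _ h2
      rw [D.inner_S_X h2] at h1
      have h4 : classInner (φ μ) (ψ μ) = -(D.εX (ψ μ) * D.εX χ) := by
        linear_combination (D.εX (ψ μ) : ℂ) * h3 - classInner (φ μ) (ψ μ) * D.signX_sq h2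
      rw [h4] at h1
      exact zero_ne_one (α := ℂ) (by
        linear_combination h1 + (D.ε : ℂ) * D.εX (ψ μ) * D.signX_sq hχ)
    refine (D.mem_Y _).2 ⟨h.mp.mem_of_pstar (h.stab (htA μ)) hχc fun h0 => ?_, h2⟩
    rw [D.inner_S_of_not h2, show classInner (φ μ) (ψ μ) = 0 from h0] at h1
    simp at h1
  have heq : ∀ μ, μ ≠ oneIrr K → ∀ ν, ν ≠ oneIrr K → (ψ μ = ψ ν ↔ th A μ = th A ν) :=
    fun μ hμ ν hν => ⟨fun h1 => by
      by_contra h2
      have h3 := hηη μ hμ ν hν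
      rw [inner_th_of_ne h2, ← hψη μ hμ, ← hψη ν hν, h1, H6.irr_inner_self (ψ ν).2] at h3
      exact one_ne_zero h3,
    fun h1 => Subtype.ext (by rw [hψη μ hμ, hψη ν hν]; simp only [hη, hφ, ht, h1])⟩
  have hmaps : ∀ μ ∈ Finset.univ.erase (oneIrr K), ψ μ ∈ D.Y := fun μ hμ =>
    hmem μ (Finset.mem_erase.1 hμ).1
  have hle : ∀ y ∈ D.Y, ((Finset.univ.erase (oneIrr K)).filter fun μ => ψ μ = y).card ≤
      Nat.card A := fun y _ => by
    rcases ((Finset.univ.erase (oneIrr K)).filter fun μ => ψ μ = y).eq_empty_or_nonempty with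
      h0 | ⟨ν, hν⟩
    · rw [h0]; exact Nat.zero_le _
    · obtain ⟨h1, rfl⟩ := Finset.mem_filter.1 hν
      rw [Finset.filter_congr fun μ hμ =>
        heq μ (Finset.mem_erase.1 hμ).1 ν (Finset.mem_erase.1 h1).1]
      exact h.fa.card_fiber_le _ (Finset.notMem_erase _ _) ν
  have hfib := (Finset.sum_eq_sum_iff_of_le hle).1 (by
    rw [← Finset.card_eq_sum_card_fiberwise hmaps, Finset.card_erase_of_mem (Finset.mem_univ _),
      Finset.card_univ, ← Nat.card_eq_fintype_card, h.fa.card_irr, Finset.sum_const, smul_eq_mul,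
      Nat.sub_eq_of_eq_add D.card_Y.symm, mul_comm])
  have hdv : ∀ χ' ∈ D.X, ∀ u ∈ P, u ≠ 1 →
      D.εX χ' * dv p M P e χ' u = D.εX χ * dv p M P e χ u := fun χ' hχ' u hu h1 => by
    rw [← dv_smul, ← dv_smul]
    exact dv_congr_sing h.mp hu h1 fun g hg => D.singX χ' hχ' χ hχ g hg
  refine ⟨ψ, fun u => D.εX χ * dv p M P e χ u, hmem, fun y hy => ?_, heq, fun f => ?_,
    fun u hu => mul_mem (intCast_mem _ _)
      (mem_O_of_isIntegral M (h.mp.isIntegral_dv hu (H6.irr_isGen χ.2))), hdv,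
    fun μ hμ u hu => ?_⟩
  · obtain ⟨μ, hμ⟩ := Finset.card_pos.1 ((hfib y hy).symm ▸ Nat.card_pos (α := A))
    exact ⟨μ, (Finset.mem_erase.1 (Finset.mem_filter.1 hμ).1).1, (Finset.mem_filter.1 hμ).2⟩
  · rw [← Finset.sum_fiberwise_of_maps_to hmaps, Finset.mul_sum]
    refine Finset.sum_congr rfl fun y hy => ?_
    rw [Finset.sum_congr rfl (g := fun _ => f y) fun μ hμ => by rw [(Finset.mem_filter.1 hμ).2],
      Finset.sum_const, hfib y hy, nsmul_eq_mul]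
  · have h1 : (u : G) ≠ 1 := fun h0 => hu (Subtype.ext h0)
    have h2 : dv p M P e D.S u = Nat.card A * (D.εX χ * dv p M P e χ u) := by
      rw [← dv_smul, ← dv_smul]
      exact dv_congr_sing h.mp u.2 h1 fun g hg => D.S_sing hχ hg
    rw [hψη μ hμ]
    simp only [hη, dv_smul, dv_add, hφ, h.mp.dv_pstar (h.stab (htA μ)) hχc, h2]
    simp only [ht, Pi.sub_apply]
    linear_combination (D.εX χ * dv p M P e χ u * th A μ (σ u)) * D.sign_sq

end AF

section two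

variable {G₁ G₂ : Type*} [Group G₁] [Fintype G₁] [Group G₂] [Fintype G₂]
  {B₁ : Set (IrrCharacter G₁)} {P₁ : Subgroup G₁} {e₁ : MonoidAlgebra (F M) G₁}
  {B₂ : Set (IrrCharacter G₂)} {P₂ : Subgroup G₂} {e₂ : MonoidAlgebra (F M) G₂}
  {σ₁ : P₁ ≃* K} {σ₂ : P₂ ≃* K}

/-- Two blocks with the same free fusion pattern are perfectly isometric. -/
theorem exists_perfect (h₁ : AF p M B₁ P₁ e₁ σ₁ A) (h₂ : AF p M B₂ P₂ e₂ σ₂ A)
    (D₁ : DL p B₁ (Nat.card A) (Nat.card K)) (D₂ : DL p B₂ (Nat.card A) (Nat.card K))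
    (hn : ¬ p ∣ Nat.card A) :
    ∃ I s, IsPerfectIsometry p M B₂ B₁ I s ∧ ∀ η ∈ D₂.Y, s η = D₁.ε * D₂.ε := by
  letI := Classical.decEq (IrrCharacter K)
  letI := Classical.decEq (IrrCharacter G₂)
  obtain ⟨ψ₁, δ₁, m₁, s₁, q₁, -, o₁, x₁, y₁⟩ := h₁.exists_label D₁
  obtain ⟨ψ₂, δ₂, m₂, s₂, q₂, t₂, o₂, x₂, y₂⟩ := h₂.exists_label D₂
  choose! lab hlab using s₂
  obtain ⟨β⟩ : Nonempty (D₂.X ≃ D₁.X) :=
    ⟨Finset.equivOfCardEq (D₂.card_X.trans D₁.card_X.symm)⟩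
  set I : IrrCharacter G₂ → IrrCharacter G₁ := fun η =>
    if h : η ∈ D₂.X then β ⟨η, h⟩ else ψ₁ (lab η) with hI
  set s : IrrCharacter G₂ → ℤ := fun η =>
    if η ∈ D₂.X then D₁.εX (I η) * D₂.εX η else D₁.ε * D₂.ε with hs
  have IX : ∀ η (h : η ∈ D₂.X), I η = β ⟨η, h⟩ := fun η h => dif_pos h
  have IX' : ∀ η ∈ D₂.X, I η ∈ D₁.X := fun η h => IX η h ▸ (β ⟨η, h⟩).2
  have IY : ∀ η ∈ D₂.Y, I η = ψ₁ (lab η) := fun η h => dif_neg ((D₂.mem_Y η).1 h).2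
  have IY' : ∀ η ∈ D₂.Y, I η ∈ D₁.Y := fun η h => IY η h ▸ m₁ _ (hlab η h).1
  have Iψ : ∀ μ, μ ≠ oneIrr K → I (ψ₂ μ) = ψ₁ μ := fun μ hμ => by
    have h1 := hlab _ (m₂ μ hμ)
    rw [IY _ (m₂ μ hμ), q₁ _ h1.1 μ hμ, ← q₂ _ h1.1 μ hμ, h1.2]
  have sX : ∀ η ∈ D₂.X, s η = D₁.εX (I η) * D₂.εX η := fun η h => if_pos h
  have sY : ∀ η ∈ D₂.Y, s η = D₁.ε * D₂.ε := fun η h => if_neg ((D₂.mem_Y η).1 h).2
  have cs : ∀ η ∈ B₂, η ∈ D₂.X ∨ η ∈ D₂.Y := fun η h => by rw [D₂.mem_Y]; tauto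
  have hbX : Set.BijOn I D₂.X D₁.X := ⟨IX', fun a ha b hb hab => by
    rw [IX a ha, IX b hb] at hab
    exact congrArg Subtype.val (β.injective (Subtype.ext hab)), fun χ hχ =>
      ⟨β.symm ⟨χ, hχ⟩, (β.symm ⟨χ, hχ⟩).2, by rw [IX _ (β.symm ⟨χ, hχ⟩).2]; simp⟩⟩
  have hbY : Set.BijOn I D₂.Y D₁.Y := ⟨IY', fun a ha b hb hab => by
    rw [IY a ha, IY b hb, q₁ _ (hlab a ha).1 _ (hlab b hb).1,
      ← q₂ _ (hlab a ha).1 _ (hlab b hb).1, (hlab a ha).2, (hlab b hb).2] at hab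
    exact hab, fun χ hχ => by
      obtain ⟨μ, hμ, rfl⟩ := s₁ χ hχ
      exact ⟨ψ₂ μ, m₂ μ hμ, Iψ μ hμ⟩⟩
  have hbij : Set.BijOn I B₂ B₁ := by
    refine ⟨fun η h => (cs η h).elim (fun h' => D₁.sub _ (IX' η h'))
      fun h' => ((D₁.mem_Y _).1 (IY' η h')).1, fun a ha b hb hab => ?_, fun χ hχ => ?_⟩
    · rcases cs a ha with h1 | h1 <;> rcases cs b hb with h2 | h2
      · exact hbX.injOn h1 h2 hab
      · exact (((D₁.mem_Y _).1 (IY' b h2)).2 (hab ▸ IX' a h1)).elim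
      · exact (((D₁.mem_Y _).1 (IY' a h1)).2 (hab ▸ IX' b h2)).elim
      · exact hbY.injOn h1 h2 hab
    · by_cases h1 : χ ∈ D₁.X
      · obtain ⟨η, h2, h3⟩ := hbX.surjOn h1
        exact ⟨η, D₂.sub η h2, h3⟩
      · obtain ⟨η, h2, h3⟩ := hbY.surjOn ((D₁.mem_Y χ).2 ⟨hχ, h1⟩)
        exact ⟨η, ((D₂.mem_Y η).1 h2).1, h3⟩
  have sumX : ∀ f : IrrCharacter G₁ → ℂ, ∑ η ∈ D₂.X, f (I η) = ∑ χ ∈ D₁.X, f χ := fun f =>
    Finset.sum_nbij I hbX.mapsTo hbX.injOn hbX.surjOn fun _ _ => rfl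
  have sumY : ∀ f : IrrCharacter G₁ → ℂ, ∑ η ∈ D₂.Y, f (I η) = ∑ χ ∈ D₁.Y, f χ := fun f =>
    Finset.sum_nbij I hbY.mapsTo hbY.injOn hbY.surjOn fun _ _ => rfl
  obtain ⟨χ₁, hχ₁⟩ := D₁.exists_X
  obtain ⟨χ₂, hχ₂⟩ := D₂.exists_X
  refine ⟨I, s, isPerfectIsometry_of h₁.mp h₂.mp h₁.ab h₂.ab h₁.ro h₂.ro
    (h₁.card.trans h₂.card.symm) I s hbij (fun η h => ?_) (fun u hu hu1 v hv hv1 => ?_)
    (fun x hx y hy => ?_) (fun x hx y hy => ?_), sY⟩
  · rcases cs η h with h' | h'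
    · rw [sX η h']
      rcases D₁.signX _ (IX' η h') with a | a <;> rcases D₂.signX _ h' with b | b <;> simp [a, b]
    · rw [sY η h']
      rcases D₁.sign with a | a <;> rcases D₂.sign with b | b <;> simp [a, b]
  · obtain ⟨m, hm⟩ := h₁.fa.exists_sum_th_mul (σ₁ ⟨u, hu⟩) (σ₂ ⟨v, hv⟩)
    have hn' := D₁.n_ne_zero
    have hq : (Nat.card K : ℂ) ≠ 0 := Nat.cast_ne_zero.2 Nat.card_pos.ne'
    have h1 := t₂ fun η => (s η : ℂ) * dv p M P₁ e₁ (I η) u * dv p M P₂ e₂ η v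
    rw [Finset.sum_congr rfl (g := fun μ : IrrCharacter K =>
      δ₁ u * δ₂ v * (th A μ (σ₁ ⟨u, hu⟩) * th A μ (σ₂ ⟨v, hv⟩))), ← Finset.mul_sum] at h1
    swap
    · intro μ hμ
      have hμ' := (Finset.mem_erase.1 hμ).1
      have a1 := y₁ μ hμ' ⟨u, hu⟩ fun h0 => hu1 (congrArg Subtype.val h0)
      have a2 := y₂ μ hμ' ⟨v, hv⟩ fun h0 => hv1 (congrArg Subtype.val h0)
      rw [sY _ (m₂ μ hμ'), Iψ μ hμ', Int.cast_mul, mul_mul_mul_comm, ← a1, ← a2]
      ring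
    rw [← Finset.add_sum_erase _ _ (Finset.mem_univ (oneIrr K)),
      show (oneIrr K : K → ℂ) = fun _ => 1 from rfl, th_const, th_const] at hm
    rw [D₂.sum_B, Finset.sum_congr rfl (g := fun _ => δ₁ u * δ₂ v), Finset.sum_const, D₂.card_X,
      nsmul_eq_mul, h₁.card]
    · have := mul_mem (mul_mem (mul_mem (o₁ u hu) (o₂ v hv)) (natCast_mem (O M) m))
        (natCast_inv_mem_O h₁.mp.hM hn)
      convert this using 1
      field_simp
      linear_combination -h1 + δ₁ u * δ₂ v * hm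
    · intro η hη
      rw [sX η hη, Int.cast_mul, ← x₁ _ (IX' η hη) u hu hu1, ← x₂ η hη v hv hv1]
      ring
  · rw [D₂.sum_B, Finset.sum_congr rfl (g := fun η => D₁.εX χ₁ * (χ₁ : G₁ → ℂ) x *
        (D₂.εX η * (η : G₂ → ℂ) y)), Finset.sum_congr rfl (s₁ := D₂.Y) (g := fun η =>
        D₁.ε * (I η : G₁ → ℂ) x * D₂.S y), ← Finset.mul_sum, ← Finset.sum_mul, ← D₂.S_apply,
      ← Finset.mul_sum, sumY fun χ => (χ : G₁ → ℂ) x, ← add_mul,
      D₁.sing_sum h₁.mp.hM h₁.mp.hB hχ₁ hx, zero_mul]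
    · intro η hη
      rw [sY η hη, Int.cast_mul, D₂.S_apply, ← D₂.regY η hη y hy]
      ring
    · intro η hη
      rw [sX η hη, Int.cast_mul, ← D₁.singX _ (IX' η hη) χ₁ hχ₁ x hx]
      ring
  · rw [D₂.sum_B, Finset.sum_congr rfl (g := fun η => D₁.εX (I η) * (I η : G₁ → ℂ) x *
        (D₂.εX χ₂ * (χ₂ : G₂ → ℂ) y)), Finset.sum_congr rfl (s₁ := D₂.Y) (g := fun η =>
        D₁.S x * (D₂.ε * (η : G₂ → ℂ) y)), ← Finset.mul_sum, ← Finset.sum_mul,
      sumX fun χ => D₁.εX χ * (χ : G₁ → ℂ) x, ← D₁.S_apply, ← Finset.mul_sum, ← mul_add,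
      D₂.sing_sum h₂.mp.hM h₂.mp.hB hχ₂ hy, mul_zero]
    · intro η hη
      rw [sY η hη, Int.cast_mul, D₁.S_apply, ← D₁.regY _ (IY' η hη) x hx]
      ring
    · intro η hη
      rw [sX η hη, Int.cast_mul, ← D₂.singX η hη χ₂ hχ₂ y hy]
      ring

end two

end H35C
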