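import Mathlib
import Cfsg.Agent.Base
import Cfsg.Agent.Lib.Cyc.Label
import Cfsg.Agent.Lib.Cyc.Dade

/-! Perfect isometries between blocks with cyclic defect groups. -/

set_option autoImplicit false
set_option linter.unusedSectionVars false
set_option linter.style.haveILetI false
attribute [local irreducible] H33.instFieldF

namespace H35C

open Cfsg H33 H84 H85 MonoidAlgebra
open H35 hiding cj
open H86 (Cen Nor cs cj St eS emb PairOf IsMaxPair)
open Subgroup (zpowers)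
open scoped ComplexConjugate H85.SubFin

theorem subgroup_eq_of_card_eq {C : Type*} [Group C] [Finite C] [IsCyclic C] {A A' : Subgroup C}
    (h : Nat.card A = Nat.card A') : A = A' := by
  classical
  letI := Fintype.ofFinite C
  have key : ∀ X : Subgroup C, (X : Set C).toFinset =
      Finset.univ.filter fun a => a ^ Nat.card X = 1 := fun X => by
    refine Finset.eq_of_subset_of_card_le (fun a ha => ?_)
      ((IsCyclic.card_pow_eq_one_le Nat.card_pos).trans ?_)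
    · rw [Set.mem_toFinset] at ha
      exact Finset.mem_filter.2 ⟨Finset.mem_univ _,
        congrArg Subtype.val (pow_card_eq_one' (x := (⟨a, ha⟩ : X)))⟩
    · rw [Set.toFinset_card, ← Nat.card_eq_fintype_card]; rfl
  exact SetLike.coe_injective (Set.toFinset_inj.1 (by rw [key, key, h]))

theorem aut_eq_of_card {K : Type*} [Group K] [Finite K] {p : ℕ} [hp : Fact p.Prime]
    (hc : IsCyclic K) (hK : IsPGroup p K) {A A' : Subgroup (MulAut K)}
    (h : Nat.card A = Nat.card A') (hd : Nat.card A ∣ p - 1) : A = A' := by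
  by_cases h2 : p = 2
  · subst h2
    have h1 : Nat.card A = 1 := Nat.dvd_one.1 hd
    rw [Subgroup.card_eq_one.1 h1, Subgroup.card_eq_one.1 (h.symm.trans h1)]
  · obtain ⟨a, ha⟩ := IsPGroup.iff_card.1 hK
    haveI : IsCyclic (ZMod (Nat.card K))ˣ := ha ▸ ZMod.isCyclic_units_of_prime_pow p hp.out h2 a
    haveI : IsCyclic (MulAut K) := isCyclic_of_surjective (IsCyclic.mulAutMulEquiv K).symm
      (IsCyclic.mulAutMulEquiv K).symm.surjective
    exact subgroup_eq_of_card_eq h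

section one

variable {G : Type*} [Group G] [Fintype G] {p : ℕ} [hp : Fact p.Prime] {M : Ideal AlgInt}
  [M.IsMaximal] {B : Set (IrrCharacter G)} {P : Subgroup G} {e : MonoidAlgebra (F M) G}

theorem mp_not_dvd (h : MP p M B P e) (hab : P ≤ Cen P) : ¬ p ∣ (Cen P).relIndex (St ⊤ P e) := by
  haveI := charP h.hM
  haveI := H86.good h.hM G
  have := h.max.not_dvd (H86.isBlk_eB h.hB)
  rwa [top_inf_eq, sup_eq_right.2 hab] at this

theorem fus_iff_of_ab (h : MP p M B P e) (hab : P ≤ Cen P) {u v : G} (hu : u ∈ P) :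
    Fus p P e u v ↔ ∃ g ∈ St ⊤ P e, v = g * u * g⁻¹ := by
  haveI := charP h.hM
  refine ⟨fun ⟨x, hx, hv⟩ => ?_, fun ⟨g, hg, hv⟩ => hv ▸ h.fus_conj hu hg⟩
  obtain ⟨y, hy, c, hc, rfl⟩ := (h.sub (Subgroup.zpowers_le.2 hu)).exists_mul_of_ab h.max
    (H86.isBlk_eB h.hB) hab hx
  refine ⟨y, hy, ?_⟩
  have : u * c = c * u := ((isCen_zpowers u) c).1 hc.2
  rw [hv, mul_inv_rev, mul_assoc y c u, ← this]
  group

theorem ro_of_cyclic (h : MP p M B P e) (hc : IsCyclic P) : RO p M P e := fun u hu h1 => by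
  haveI := charP h.hM
  haveI := H86.good h.hM G
  have hab := H86.le_Cen_of_isCyclic hc
  have hQ := Subgroup.zpowers_le.2 hu
  have hPQ : P ≤ Cen (zpowers u) := hab.trans (H86.Cen_anti hQ)
  have hD := h.isDef_loc hQ hPQ
  refine rank_one_of_nil h.hM (h.blk hQ) hD
    (isCyclic_of_surjective _ (Subgroup.subgroupOfEquivOfLe hPQ).symm.surjective) ?_
  have h2 := (((h.sub hQ).nsub h.max.toPair (hPQ.trans (H86.Cen_le_Nor _))).pairOf hPQ
    inf_le_right le_top).isMaxPair ((H86.isDefectGroup_subgroupOf_iff (h.blk hQ) hPQ).1 hD)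
  rw [H86.isNilpotentBlock_sub_iff (h.blk hQ),
    H86.isNil_iff_of_ab h2 (H86.isBlk_eS (h.blk hQ)) hab]
  exact fun x hx => ((H86.inf_Cen_le_of_isCyclic hc h.pgrp (H86.St_le_Nor _ _ _)
    (mp_not_dvd h hab) hQ (by simpa using h1)).le ⟨hx.1.1, ⟨trivial, hx.1.2⟩, hx.2⟩).1

theorem exists_AF (h : MP p M B P e) (hc : IsCyclic P) {K : Type*} [Group K] [Fintype K]
    (σ : P ≃* K) :
    ∃ A : Subgroup (MulAut K), Nat.card A = (Cen P).relIndex (St ⊤ P e) ∧ AF p M B P e σ A := by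
  have hab := H86.le_Cen_of_isCyclic hc
  have hN := H86.St_le_Nor ⊤ P e
  set f : Nor P →* MulAut K := (MulAut.congr σ).toMonoidHom.comp P.normalizerMonoidHom with hf
  have hfa : ∀ (g : Nor P) (u v : P), σ v = f g (σ u) ↔ (v : G) = g * u * (g : G)⁻¹ := fun g u v => by
    simp only [hf, MulEquiv.toMonoidHom_eq_coe, MonoidHom.comp_apply, MonoidHom.coe_coe,
      MulAut.congr_apply, MulEquiv.trans_apply, MulEquiv.symm_apply_apply, EmbeddingLike.apply_eq_iff_eq,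
      Subtype.ext_iff]
    rfl
  have hker : f.ker = (Cen P).subgroupOf (Nor P) := by
    rw [hf, MonoidHom.ker_comp_of_injective _ _ (MulAut.congr σ).injective,
      Subgroup.normalizerMonoidHom_ker]
  refine ⟨((St ⊤ P e).subgroupOf (Nor P)).map f, ?_, h, ⟨fun a b => ?_, ?_⟩, fun u v => ?_,
    ro_of_cyclic h hc⟩
  · rw [← Subgroup.relIndex_ker, hker, Subgroup.relIndex_subgroupOf hN]
  · obtain ⟨a, rfl⟩ := σ.surjective a
    obtain ⟨b, rfl⟩ := σ.surjective b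
    rw [← map_mul, ← map_mul]
    exact congrArg σ (Subtype.ext (hab b.2 a a.2))
  · rintro _ ⟨g, hg, rfl⟩ x hx h1
    obtain ⟨u, rfl⟩ := σ.surjective x
    rw [← MonoidHom.mem_ker, hker]
    exact H86.free_of_isCyclic hc h.pgrp hN (mp_not_dvd h hab) hg u.2
      (fun h0 => hx (by rw [show u = 1 from Subtype.ext h0, map_one])) ((hfa g u u).1 h1.symm).symm
  · rw [fus_iff_of_ab h hab u.2]
    exact ⟨fun ⟨g, hg, h1⟩ => ⟨_, ⟨⟨g, hN hg⟩, hg, rfl⟩, (hfa _ u v).2 h1⟩,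
      fun ⟨_, ⟨g, hg, rfl⟩, h1⟩ => ⟨g, hg, (hfa _ u v).1 h1⟩⟩

theorem relIndex_dvd (h : MP p M B P e) (hc : IsCyclic P) (h1 : P ≠ ⊥) :
    (Cen P).relIndex (St ⊤ P e) ∣ p - 1 := by
  obtain ⟨Z, hZ, hZp⟩ := exists_card_eq_prime h.pgrp h1
  obtain ⟨c, hc⟩ := exists_LD h.hM h.hB h.max hc hZ hZp
  exact hc.dvd h.hM

theorem rank_of_cyclic (h : MP p M B P e) (hc : IsCyclic P) (h1 : P ≠ ⊥) :
    blockRank p B = (Cen P).relIndex (St ⊤ P e) := by
  obtain ⟨Z, hZ, hZp⟩ := exists_card_eq_prime h.pgrp h1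
  obtain ⟨c, hc⟩ := exists_LD h.hM h.hB h.max hc hZ hZp
  exact hc.rank_eq' h.hM (hc.rank_one h.hM)

theorem nonempty_DL (h : MP p M B P e) (hc : IsCyclic P) (h1 : P ≠ ⊥) :
    Nonempty (DL p B ((Cen P).relIndex (St ⊤ P e)) (Nat.card P)) := by
  have hM := h.hM
  obtain ⟨Z, hZ, hZp⟩ := exists_card_eq_prime h.pgrp h1
  obtain ⟨c, hL⟩ := exists_LD hM h.hB h.max hc hZ hZp
  have hl := hL.rank_one hM
  obtain ⟨ζ, h2, h3⟩ := hL.exists_fixed hM hl
  obtain ⟨X⟩ := hL.nonempty_dade hM hl h2 h3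
  have hd := hL.cd hM hl h2 h3
  have hY := X.card_Y hd
  rw [(hL.nil_cyclic hM hl).1] at hY
  refine ⟨⟨X.X, X.Y, X.εX, X.ε, fun _ => X.mem_of_mem_X, fun _ => X.mem_Y', X.card_X, hY, ?_,
    X.sign, X.signX, fun χ hχ χ' hχ' g hg => mul_left_cancel₀ hd.e_ne_zero ?_,
    fun ψ hψ g hg => X.reg_rel_Y hd hψ hg, fun χ hχ =>
      X.height_eq_zero hd hM (hL.defect_ne hM) (hL.nd hM) (X.mem_of_mem_X hχ)⟩⟩
  · rw [← Finset.card_pos, Nat.pos_iff_ne_zero]
    intro h0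
    rw [h0, mul_zero, zero_add] at hY
    exact h1 (Subgroup.card_eq_one.1 hY.symm)
  · rw [mul_left_comm, X.sing_X χ hχ g hg, mul_left_comm _ (X.εX χ' : ℂ), X.sing_X χ' hχ' g hg,
      ← mul_assoc, ← mul_assoc, X.signX_sq hχ, X.signX_sq hχ']

theorem mp_of_induced {H : Subgroup G} (hPH : P ≤ H) (hC : Cen P ≤ H) (hD : IsDefectGroup p M B P)
    {c : Set (IrrCharacter H)} (hind : IsInducedBlock M H c B) {e : MonoidAlgebra (F M) H}
    (h : MP p M c (P.subgroupOf H) e) : MP p M B P (emb H.subtype e) := by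
  haveI := charP h.hM
  have h1 := (H86.pairOf_emb H.subtype_injective).2 h.max.toPairOf
  rw [← MonoidHom.range_eq_map, H.range_subtype, Subgroup.map_subgroupOf_eq_of_le hPH] at h1
  have h2 := br_mul_br_of_induced h.hM h1.pgrp hPH hC hind
  refine ⟨h.hM, hind.2.1, PairOf.isMaxPair ⟨⟨le_top, h1.pgrp, ?_⟩, ?_⟩
    ((H86.isDefectGroup_iff hind.2.1 P).1 hD)⟩
  · have := h1.blk
    rwa [inf_eq_right.2 hC, ← top_inf_eq (Cen P)] at this
  · rw [← h1.br_mul, ← mul_assoc]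
    exact congrArg (· * _) h2

theorem relIndex_emb {H : Subgroup G} (hPH : P ≤ H) (hN : Nor P ≤ H)
    (e : MonoidAlgebra (F M) H) : (Cen (P.subgroupOf H)).relIndex (St ⊤ (P.subgroupOf H) e) =
      (Cen P).relIndex (St ⊤ P (emb H.subtype e)) := by
  rw [Cen_subgroupOf hPH, ← Subgroup.relIndex_subgroupOf ((H86.St_le_Nor _ _ _).trans hN)]
  congr 1
  ext x
  have h1 : cj (x : G) (emb H.subtype e) = emb H.subtype (cj x e) := H86.cj_emb H.subtype x e
  refine ⟨fun hx => ⟨⟨trivial, ?_⟩, ?_⟩, fun hx => ⟨⟨trivial, ?_⟩, ?_⟩⟩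
  · exact Subgroup.mem_subgroupOf.1 (Nor_subgroupOf hPH ▸ hx.1.2)
  · exact h1.trans (congrArg _ hx.2)
  · exact Nor_subgroupOf hPH ▸ Subgroup.mem_subgroupOf.2 hx.1.2
  · exact H86.emb_injective H.subtype_injective (h1.symm.trans hx.2)

end one

section two

variable {G₁ G₂ : Type*} [Group G₁] [Fintype G₁] [Group G₂] [Fintype G₂] {p : ℕ}
  [hp : Fact p.Prime] {M : Ideal AlgInt} [M.IsMaximal]
  {B₁ : Set (IrrCharacter G₁)} {P₁ : Subgroup G₁} {e₁ : MonoidAlgebra (F M) G₁}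
  {B₂ : Set (IrrCharacter G₂)} {P₂ : Subgroup G₂} {e₂ : MonoidAlgebra (F M) G₂}

/-- Blocks with cyclic defect groups of the same order and the same inertial index are perfectly
isometric. -/
theorem exists_perfect_cyclic (h₁ : MP p M B₁ P₁ e₁) (h₂ : MP p M B₂ P₂ e₂) (c₁ : IsCyclic P₁)
    (c₂ : IsCyclic P₂) (h1 : P₁ ≠ ⊥) (hq : Nat.card P₁ = Nat.card P₂) {n : ℕ}
    (n₁ : (Cen P₁).relIndex (St ⊤ P₁ e₁) = n) (n₂ : (Cen P₂).relIndex (St ⊤ P₂ e₂) = n)
    (D₂ : DL p B₂ n (Nat.card P₂)) :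
    ∃ I s, IsPerfectIsometry p M B₂ B₁ I s ∧ ∀ η ∈ D₂.Y, ∀ η' ∈ D₂.Y, s η = s η' := by
  obtain ⟨A₁, a₁, f₁⟩ := exists_AF h₁ c₁ (mulEquivOfCyclicCardEq hq)
  obtain ⟨A₂, a₂, f₂⟩ := exists_AF h₂ c₂ (MulEquiv.refl P₂)
  obtain ⟨D₁⟩ := nonempty_DL h₁ c₁ h1
  have hd := relIndex_dvd h₁ c₁ h1
  have hn := mp_not_dvd h₁ (H86.le_Cen_of_isCyclic c₁)
  rw [← a₁] at hd hn D₁
  rw [hq] at D₁
  obtain rfl := aut_eq_of_card c₂ h₂.pgrp (A := A₁) (A' := A₂) (by rw [a₁, a₂, n₁, n₂]) hd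
  obtain rfl : Nat.card A₁ = n := a₁.trans n₁
  obtain ⟨I, s, h2, h3⟩ := exists_perfect f₁ f₂ D₁ D₂ hn
  exact ⟨I, s, h2, fun η hη η' hη' => (h3 η hη).trans (h3 η' hη').symm⟩

end two

end H35C
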